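import Cfsg.Agent.J2T.C

/-! The 2-groups of type `J₂`: the defining facts. -/

set_option autoImplicit false
set_option linter.unusedSectionVars false

namespace Cfsg.Agent.J2T

open Subgroup Cfsg.Agent.H10 Cfsg.Agent.JR
open scoped commutatorElement Pointwise

variable {G : Type*} [Group G] [Finite G]

/-- `S` is a 2-group of type `J₂`, `Q` its normal subgroup `2^{1+4}_-`, `⟨z, s⟩ = Z₂(S)` -/
structure SY (S Q : Subgroup G) (z s : G) : Prop extends XS Q z where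
  le : Q ≤ S
  cS : Nat.card S = 128
  cq : Nat.card Q = 32
  nQ : ∀ x ∈ S, ∀ q ∈ Q, x * q * x⁻¹ ∈ Q
  cz : ∀ x ∈ S, x * z = z * x
  sOm : s ∈ Om Q z
  om : (Om Q z).ncard = 10
  main : ∀ a ∈ Om Q z, ∀ x ∈ Q, x * a = a * x → x * x = 1 → x ∈ Vs z a
  sS : ∀ x ∈ S, x * s * x⁻¹ = s ∨ x * s * x⁻¹ = z * s
  root : ∀ x ∈ S, x * x = z → x ∈ Q
  sqQ : ∀ x ∈ S, x * x ∈ Q
  cs : ∀ a ∈ Om Q z, a * s ≠ s * a → ∀ x ∈ S, ⁅x, a⁆ ∈ zpowers z → x ∈ Q
  coset : ∀ x ∈ S, ∃ q ∈ Q, q * x * (q * x) = 1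
  out : ∀ t ∈ S, t ∉ Q → t * t = 1 → t * s = s * t ∧
    (∃ n ∈ Q, n * n = z ∧ n * s = s * n ∧ n * t * n⁻¹ = z * t) ∧
      ∀ x ∈ S, x * t = t * x → x * x = 1

namespace SY

variable {S Q : Subgroup G} {z s a x : G} (h : SY S Q z s)
include h

theorem sq_eq (hx : x ∈ Q) (e : x * x ≠ 1) : x * x = z := (h.mem_z.1 (h.sq x hx)).resolve_left e

theorem sq_mul (hx : x ∈ Q) (ha : a ∈ Q) (e : a * x ≠ x * a) :
    x * a * (x * a) = z * (x * x) * (a * a) := by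
  rw [show x * a * (x * a) = x * (a * x) * a by group, h.mul_eq_of_ne ha hx e,
    ← mul_assoc x z, h.cent x hx]
  group

theorem mem_Vs (ha : a ∈ Om Q z) : x ∈ Vs z a ↔ x = 1 ∨ x = z ∨ x = a ∨ x = z * a :=
  H11.mem_four_iff h.zz ha.2.1 (h.cent a ha.1).symm

theorem card_Q1 (ha : a ∈ Q) (hz : a ∉ zpowers z) : Nat.card (Q ⊓ Ce a : Subgroup G) = 16 := by
  have h1 := card_mul_cls Q a
  obtain ⟨q, hq, e⟩ := h.exists_ne_comm ha hz
  have h2 : cls Q a = {a, z * a} := by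
    ext y
    constructor
    · rintro ⟨b, hb, rfl⟩
      by_cases e' : b * a = a * b
      · left; rw [e', mul_inv_cancel_right]
      · right; exact h.conj_eq_of_ne hb ha e'
    · rintro (rfl | rfl)
      · exact self_mem_cls _ _
      · exact ⟨q, hq, h.conj_eq_of_ne hq ha e⟩
  rw [h2, Set.ncard_pair (by simpa using h.ne_one), h.cq, inf_comm] at h1
  omega

theorem ncard_Vs (ha : a ∈ Om Q z) : (Vs z a : Set G).ncard ≤ 4 := by
  rw [show (Vs z a : Set G) = {1, z, a, z * a} from Set.ext fun x => h.mem_Vs ha]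
  have h1 := Set.ncard_insert_le (1 : G) {z, a, z * a}
  have h2 := Set.ncard_insert_le z {a, z * a}
  have h3 := Set.ncard_insert_le a {z * a}
  rw [Set.ncard_singleton] at h3
  omega

/-- a square root of `z` centralizing `a` -/
theorem rt (ha : a ∈ Om Q z) : ∃ n ∈ Q, n * n = z ∧ n * a = a * n := by
  obtain ⟨n, hn, e⟩ : ∃ n ∈ ((Q ⊓ Ce a : Subgroup G) : Set G), n ∉ (Vs z a : Set G) :=
    Set.exists_mem_notMem_of_ncard_lt_ncard (by
      have := h.ncard_Vs ha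
      rw [ncard_coe (Q ⊓ Ce a), h.card_Q1 ha.1 ha.2.2]; omega)
  exact ⟨n, hn.1, h.sq_eq hn.1 fun e' => e (h.main a ha n hn.1 (mem_Ce.1 hn.2) e'), mem_Ce.1 hn.2⟩

/-- a second singular point -/
theorem exists_s' : ∃ a ∈ Om Q z, a * s ≠ s * a := by
  obtain ⟨a, ha, e⟩ : ∃ a ∈ Om Q z, a ∉ (Vs z s : Set G) :=
    Set.exists_mem_notMem_of_ncard_lt_ncard (by have := h.ncard_Vs h.sOm; rw [h.om]; omega)
  exact ⟨a, ha, fun e' => e (h.main s h.sOm a ha.1 e' ha.2.1)⟩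

theorem cQ (hx : x ∈ S) (e : ∀ q ∈ Q, q * x = x * q) : x ∈ zpowers z := by
  obtain ⟨a, ha, e'⟩ := h.exists_s'
  exact h.zc x (h.cs a ha e' x hx (by
    rw [commutatorElement_eq_one_iff_mul_comm.2 (e a ha.1).symm]; exact one_mem _)) e

theorem pS : IsPGroup 2 S := IsPGroup.of_card (n := 7) h.cS

end SY

end Cfsg.Agent.J2T
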