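import Cfsg.Agent.J3S.A
import Cfsg.Agent.H11.Count

/-! The 2-groups of type `J₂`: fusion of `s` in the centralizer of `z`. -/

set_option autoImplicit false
set_option linter.unusedSectionVars false

namespace Cfsg.Agent.J2T

open Subgroup Cfsg.Agent.H10 Cfsg.Agent.JR
open scoped commutatorElement Pointwise

variable {G : Type*} [Group G] [Finite G]

theorem ext_cj {S P : Subgroup G} {u w : G} (hu : H1.IsSylowIn 2 (S ⊓ Ce u) (Ce u))
    (hw : IsConj w u) (hP : IsPGroup 2 P) (hc : P ≤ Ce w) :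
    ∃ g, g * w * g⁻¹ = u ∧ ∀ x ∈ P, g * x * g⁻¹ ∈ S ⊓ Ce u := by
  haveI : Fact (Nat.Prime 2) := ⟨Nat.prime_two⟩
  obtain ⟨c, rfl⟩ := isConj_iff.1 hw
  obtain ⟨k, hk, h⟩ := hu.exists_le_conj (U := P.map (MulAut.conj c).toMonoidHom) (by
    rintro _ ⟨x, hx, rfl⟩
    exact mem_Ce.2 (by simp [mul_assoc, ← mul_assoc x, mem_Ce.1 (hc hx)])) (hP.map _)
  refine ⟨k⁻¹ * c, ?_, fun x hx => ?_⟩
  · calc k⁻¹ * c * w * (k⁻¹ * c)⁻¹ = k⁻¹ * (c * w * c⁻¹ * k) := by group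
      _ = _ := by rw [← mem_Ce.1 hk, inv_mul_cancel_left]
  · have := h ⟨x, hx, rfl⟩
    rw [mem_pointwise_smul_iff_inv_smul_mem] at this
    simpa [mul_assoc] using this

theorem exists_ext {S : Subgroup G} (hS : H1.IsSylowIn 2 S ⊤) (a : G) :
    ∃ u, IsConj a u ∧ H1.IsSylowIn 2 (S ⊓ Ce u) (Ce u) := by
  haveI : Fact (Nat.Prime 2) := ⟨Nat.prime_two⟩
  obtain ⟨T, hT⟩ := H1.exists_isSylowIn 2 (Ce a)
  obtain ⟨j, -, hj⟩ := hS.exists_le_conj le_top hT.isPGroup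
  have h1 := hT.map (MulAut.conj j⁻¹).toMonoidHom
  have h2 : (Ce a).map (MulAut.conj j⁻¹).toMonoidHom = Ce (j⁻¹ * a * j⁻¹⁻¹) := by
    ext x
    rw [mem_map_equiv, mem_Ce, mem_Ce]
    simp only [MulAut.conj_symm_apply, inv_inv]
    constructor
    · intro e
      calc x * (j⁻¹ * a * j) = j⁻¹ * (j * x * j⁻¹ * a) * j := by group
        _ = _ := by rw [e]; group
    · intro e
      calc j * x * j⁻¹ * a = j * (x * (j⁻¹ * a * j)) * j⁻¹ := by group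
        _ = _ := by rw [e]; group
  rw [h2] at h1
  refine ⟨_, isConj_iff.2 ⟨j⁻¹, rfl⟩, ?_⟩
  rwa [← h1.eq_of_le (le_inf ?_ h1.le) inf_le_right (hS.isPGroup.to_le inf_le_left)]
  rintro _ ⟨x, hx, rfl⟩
  have := hj hx
  rw [mem_pointwise_smul_iff_inv_smul_mem] at this
  simpa using this

namespace SY

variable {S Q : Subgroup G} {z s a x : G} (h : SY S Q z s)
include h

theorem sq4 (hx : x ∈ S) (x4 : x * x * (x * x) = 1) :
    x * x = 1 ∨ x * x = z ∨ x * x = s ∨ x * x = z * s := by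
  rw [← h.mem_Vs h.sOm]
  by_cases e : x * x ∈ zpowers z
  · exact zpowers_le.2 (subset_closure (by simp)) e
  refine h.main s h.sOm _ (h.sqQ x hx) ?_ x4
  by_contra e'
  exact e (h.sq x (h.cs _ ⟨h.sqQ x hx, x4, e⟩ e' x hx (by
    rw [commutatorElement_eq_one_iff_mul_comm.2 (mul_assoc _ _ _).symm]; exact one_mem _)))

theorem zs : ∃ q, q * z * q⁻¹ = z ∧ q * (z * s) * q⁻¹ = s := by
  obtain ⟨q, hq, e⟩ := h.exists_ne_comm h.sOm.1 h.sOm.2.2
  have e1 : q * z * q⁻¹ = z := by rw [h.cent q hq, mul_inv_cancel_right]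
  exact ⟨q, e1, by rw [← conj_mul, e1, h.conj_eq_of_ne hq h.sOm.1 e, ← mul_assoc, h.zz, one_mul]⟩

theorem zcj {g : G} (ha : a ∈ Om Q z) (hg : ∀ x ∈ S ⊓ Ce a, g * x * g⁻¹ ∈ S) :
    g * z * g⁻¹ = z ∨ g * z * g⁻¹ = s ∨ g * z * g⁻¹ = z * s := by
  obtain ⟨n, n1, n2, n3⟩ := h.rt ha
  have := h.sq4 (hg n ⟨h.le n1, mem_Ce.2 n3⟩) (by rw [conj_mul, conj_mul, n2, h.zz]; simp)
  rw [conj_mul, n2] at this
  exact this.resolve_left (by simpa using h.ne_one)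

theorem sw (hS : H1.IsSylowIn 2 S ⊤) (ha : a ∈ Om Q z) (hc : IsConj a z) :
    ∃ g, g * a * g⁻¹ = z ∧ g * z * g⁻¹ = s := by
  have hle : S ≤ Ce z := fun x hx => mem_Ce.2 (h.cz x hx)
  obtain ⟨g, h1, h2⟩ := ext_cj (S := S) (P := S ⊓ Ce a)
    (by rw [inf_eq_left.2 hle]; exact hS.of_le hle le_top) hc (h.pS.to_le inf_le_left) inf_le_right
  rcases h.zcj ha fun x hx => (h2 x hx).1 with e | e | e
  · rw [← e] at h1
    exact absurd (by rw [mul_left_cancel (mul_right_cancel h1)]; exact mem_zpowers z) ha.2.2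
  · exact ⟨g, h1, e⟩
  · obtain ⟨q, q1, q2⟩ := h.zs
    exact ⟨q * g, by rw [← q1, ← h1]; group, by rw [← q2, ← e]; group⟩

omit h in
theorem fuse (h : SY S Q z s) (hS : H1.IsSylowIn 2 S ⊤) (hno : ∀ H : Subgroup G, H.index ≠ 2) :
    ∃ g, g * z = z * g ∧ g * s * g⁻¹ ∈ Q ∧ g * s * g⁻¹ * s ≠ s * (g * s * g⁻¹) := by
  haveI : Fact (Nat.Prime 2) := ⟨Nat.prime_two⟩
  obtain ⟨a, ha, has⟩ := h.exists_s'
  suffices ∃ k, k * z * k⁻¹ = z ∧ k * a * k⁻¹ = s by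
    obtain ⟨k, k1, k2⟩ := this
    have : k⁻¹ * s * k⁻¹⁻¹ = a := by rw [← k2]; group
    exact ⟨k⁻¹, (Commute.inv_left (mul_inv_eq_iff_eq_mul.1 k1)).eq, this ▸ ha.1, this ▸ has⟩
  obtain ⟨q, q1, q2⟩ := h.zs
  have cs : IsConj (z * s) s := isConj_iff.2 ⟨q, q2⟩
  by_cases hc : IsConj a z
  · obtain ⟨g, g1, g2⟩ := h.sw hS ha hc
    obtain ⟨k, k1, k2⟩ := h.sw hS h.sOm (isConj_iff.2 ⟨g, g2⟩).symm
    exact ⟨k⁻¹ * g, by
      rw [show k⁻¹ * g * z * (k⁻¹ * g)⁻¹ = k⁻¹ * (g * z * g⁻¹) * k by group, g2, ← k2]; group, by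
      rw [show k⁻¹ * g * a * (k⁻¹ * g)⁻¹ = k⁻¹ * (g * a * g⁻¹) * k by group, g1, ← k1]; group⟩
  obtain ⟨u, hu, hu'⟩ := exists_ext hS a
  obtain ⟨k, rfl, k2⟩ := ext_cj (P := S ⊓ Ce a) hu' hu (h.pS.to_le inf_le_left) inf_le_right
  have uS := (k2 a ⟨h.le ha.1, mem_Ce.2 rfl⟩).1
  have u2 : k * a * k⁻¹ * (k * a * k⁻¹) = 1 := by rw [conj_mul, ha.2.1]; simp
  have uQ : k * a * k⁻¹ ∈ Q := by
    by_contra e
    obtain ⟨n, n1, n2, n3⟩ := h.rt ha
    have h1 := k2 n ⟨h.le n1, mem_Ce.2 n3⟩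
    have := (h.out _ uS e u2).2.2 _ h1.1 (mem_Ce.1 h1.2)
    rw [conj_mul, n2] at this
    exact h.ne_one (by simpa using this)
  have uz : k * a * k⁻¹ ∉ zpowers z := fun e => by
    rcases h.mem_z.1 e with e | e
    · exact ha.2.2 (by rw [show a = 1 by simpa using e]; exact one_mem _)
    · exact hc (e ▸ hu)
  by_cases hus : k * a * k⁻¹ * s = s * (k * a * k⁻¹)
  · have e : k * a * k⁻¹ = s ∨ k * a * k⁻¹ = z * s := by
      rcases (h.mem_Vs h.sOm).1 (h.main s h.sOm _ uQ hus u2) with e | e | e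
      · exact absurd (e ▸ one_mem _) uz
      · exact absurd (e ▸ mem_zpowers z) uz
      · exact e
    rcases h.zcj ha fun x hx => (k2 x hx).1 with e' | e'
    · rcases e with e | e
      · exact ⟨k, e', e⟩
      · exact ⟨q * k, by
          rw [show q * k * z * (q * k)⁻¹ = q * (k * z * k⁻¹) * q⁻¹ by group, e', q1],
          by rw [← q2, ← e]; group⟩
    · have c1 : IsConj a s := e.elim (fun e => e ▸ hu) fun e => (e ▸ hu).trans cs
      have c2 : IsConj z s := e'.elim (fun e => isConj_iff.2 ⟨k, e⟩)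
        fun e => (isConj_iff.2 ⟨k, e⟩).trans cs
      exact absurd (c1.trans c2.symm) hc
  exfalso
  generalize k * a * k⁻¹ = u at *
  have uO : u ∈ Om Q z := ⟨uQ, u2, uz⟩
  have cu : S ⊓ Ce u ≤ Q := fun x hx => h.cs u uO hus x hx.1 (by
    rw [commutatorElement_eq_one_iff_mul_comm.2 (mem_Ce.1 hx.2)]; exact one_mem _)
  have hR : (S ⊓ Ce s).relIndex S = 2 := by
    obtain ⟨p, hp, e⟩ := h.exists_ne_comm h.sOm.1 h.sOm.2.2
    rw [relIndex_eq_two_iff]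
    refine ⟨p, h.le hp, fun b hb => ?_⟩
    by_cases hb' : b ∈ S ⊓ Ce s
    · exact Or.inr ⟨hb', fun e' => e (mem_Ce.1 ((mul_mem_cancel_left hb').1 e').2)⟩
    · refine Or.inl ⟨⟨mul_mem hb (h.le hp), mem_Ce.2 (mul_inv_eq_iff_eq_mul.1 ?_)⟩, hb'⟩
      rw [show b * p * s * (b * p)⁻¹ = b * (p * s * p⁻¹) * b⁻¹ by group,
        h.conj_eq_of_ne hp h.sOm.1 e, ← conj_mul, h.cz b hb, mul_inv_cancel_right,
        (h.sS b hb).resolve_left fun e' => hb' ⟨hb, mem_Ce.2 (mul_inv_eq_iff_eq_mul.1 e')⟩,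
        ← mul_assoc, h.zz, one_mul]
  obtain ⟨P, hP⟩ := hS.exists_sylow_top
  obtain ⟨g, hg⟩ := H11.thompson_transfer_sylow hno P (T := S ⊓ Ce s) (hP ▸ inf_le_left)
    (hP ▸ hR) u2
  obtain ⟨m, m1, m2⟩ := ext_cj (P := S ⊓ Ce (g * u * g⁻¹)) hu' (isConj_iff.2 ⟨g, rfl⟩).symm
    (h.pS.to_le inf_le_left) inf_le_right
  generalize g * u * g⁻¹ = r at *
  have sz := h.cent s h.sOm.1
  by_cases hr : r ∈ Vs z s
  · have hle : S ⊓ Ce s ≤ Ce r := fun x hx => mem_Ce.2 (by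
      rcases (h.mem_Vs h.sOm).1 hr with rfl | rfl | rfl | rfl
      · simp
      · exact h.cz x hx.1
      · exact mem_Ce.1 hx.2
      · exact (Commute.mul_right (h.cz x hx.1) (mem_Ce.1 hx.2)).eq)
    have := Nat.card_le_card_of_injective (fun x : (S ⊓ Ce s : Subgroup G) =>
      (⟨m * x * m⁻¹, cu (m2 x ⟨x.2.1, hle x.2⟩)⟩ : Q)) fun x y e => by simpa using e
    have h2 := H1.card_mul_relIndex (inf_le_left : S ⊓ Ce s ≤ S)
    rw [hR, h.cS] at h2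
    rw [h.cq] at this
    omega
  have key : ∀ v ∈ Vs z s, v ≠ 1 → m * v * m⁻¹ = z ∨ m * v * m⁻¹ = z * u := by
    have k0 : ∀ v ∈ Vs z s, v ∈ S ⊓ Ce r → v * v = 1 → m * v * m⁻¹ ∈ Vs z u := fun v _ h1 h2 =>
      h.main u uO _ (cu (m2 v h1)) (mem_Ce.1 (m2 v h1).2) (by rw [conj_mul, h2]; simp)
    have mz : z ∈ Vs z s := subset_closure (by simp)
    have ms : s ∈ Vs z s := subset_closure (by simp)
    have k1 := k0 z mz ⟨h.le h.mem, mem_Ce.2 (h.cz r hg.1).symm⟩ h.zz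
    have k2 := k0 s ms ⟨h.le h.sOm.1, mem_Ce.2 (mem_Ce.1 hg.2).symm⟩ h.sOm.2.1
    have k3 : ∀ v ∈ Vs z s, m * v * m⁻¹ ∈ Vs z u := fun v hv => by
      rcases (h.mem_Vs h.sOm).1 hv with rfl | rfl | rfl | rfl
      · simp
      · exact k1
      · exact k2
      · rw [← conj_mul]; exact mul_mem k1 k2
    intro v hv v1
    rcases (h.mem_Vs uO).1 (k3 v hv) with e | e | e | e
    · exact absurd (by simpa using e) v1
    · exact Or.inl e
    · rw [← m1] at e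
      exact absurd (mul_left_cancel (mul_right_cancel e) ▸ hv) hr
    · exact Or.inr e
  have s1 : s ≠ 1 := fun e => h.sOm.2.2 (e ▸ one_mem _)
  have s2 : s ≠ z := fun e => h.sOm.2.2 (e ▸ mem_zpowers _)
  have s3 : z * s ≠ 1 := fun e => s2 (by rw [← h.inv_z]; exact eq_inv_of_mul_eq_one_right e)
  have inj : ∀ v w : G, m * v * m⁻¹ = m * w * m⁻¹ → v = w := fun v w e => by simpa using e
  rcases key z (subset_closure (by simp)) h.ne_one with e1 | e1 <;>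
    rcases key s (subset_closure (by simp)) s1 with e2 | e2 <;>
    rcases key (z * s) (mul_mem (subset_closure (by simp)) (subset_closure (by simp))) s3
      with e3 | e3
  all_goals first
    | exact s2 (inj _ _ (e2.trans e1.symm))
    | exact s1 (by simpa using inj _ _ (e3.trans e1.symm))
    | exact h.ne_one (by simpa using inj _ _ (e3.trans e2.symm))

end SY

end Cfsg.Agent.J2T
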