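import Mathlib

/-! A subgroup of `S₅` with a regular four-group on four points as Sylow 2-subgroup, moving the
fifth point, is `A₅`. -/

set_option autoImplicit false

namespace Cfsg.Agent.J2T.PP

open Subgroup Equiv

abbrev P5 := Perm (Fin 5)

def pa : P5 := swap 1 2 * swap 3 4
def pb : P5 := swap 1 3 * swap 2 4
def pc : P5 := swap 1 4 * swap 2 3

theorem four : ∀ σ : P5, σ 0 = 0 → σ * σ = 1 → (∀ i, σ i = i → i = 0 ∨ σ = 1) →
    σ = 1 ∨ σ = pa ∨ σ = pb ∨ σ = pc := by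
  decide +kernel

theorem three : ∀ τ : P5, τ 0 ≠ 0 → ∃ u : P5, (u = pa ∨ u = pb ∨ u = pc) ∧
    (pa * (τ * u * τ⁻¹)) ^ 3 = 1 ∧ pa * (τ * u * τ⁻¹) ≠ 1 := by
  have : ∀ τ : P5, τ 0 ≠ 0 →
      ((pa * (τ * pa * τ⁻¹)) ^ 3 = 1 ∧ pa * (τ * pa * τ⁻¹) ≠ 1) ∨
      ((pa * (τ * pb * τ⁻¹)) ^ 3 = 1 ∧ pa * (τ * pb * τ⁻¹) ≠ 1) ∨
      ((pa * (τ * pc * τ⁻¹)) ^ 3 = 1 ∧ pa * (τ * pc * τ⁻¹) ≠ 1) := by decide +kernel
  intro τ hτ
  rcases this τ hτ with h | h | h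
  · exact ⟨pa, Or.inl rfl, h⟩
  · exact ⟨pb, Or.inr (Or.inl rfl), h⟩
  · exact ⟨pc, Or.inr (Or.inr rfl), h⟩

theorem five : ∀ τ : P5, τ 0 ≠ 0 → ∃ u : P5, (u = pa ∨ u = pb ∨ u = pc) ∧
    (pa * (τ * u * τ⁻¹)) ^ 5 = 1 ∧ pa * (τ * u * τ⁻¹) ≠ 1 := by
  have : ∀ τ : P5, τ 0 ≠ 0 →
      ((pa * (τ * pa * τ⁻¹)) ^ 5 = 1 ∧ pa * (τ * pa * τ⁻¹) ≠ 1) ∨
      ((pa * (τ * pb * τ⁻¹)) ^ 5 = 1 ∧ pa * (τ * pb * τ⁻¹) ≠ 1) ∨
      ((pa * (τ * pc * τ⁻¹)) ^ 5 = 1 ∧ pa * (τ * pc * τ⁻¹) ≠ 1) := by decide +kernel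
  intro τ hτ
  rcases this τ hτ with h | h | h
  · exact ⟨pa, Or.inl rfl, h⟩
  · exact ⟨pb, Or.inr (Or.inl rfl), h⟩
  · exact ⟨pc, Or.inr (Or.inr rfl), h⟩

theorem perm5 {N : Type*} [Group N] [Finite N] (φ : N →* P5) (T : Subgroup N)
    (hT : ¬ 2 ∣ T.index) (h4 : Nat.card (T.map φ) = 4) (h0 : ∀ x ∈ T, φ x 0 = 0)
    (h2 : ∀ x ∈ T, φ x * φ x = 1) (hf : ∀ x ∈ T, ∀ i, φ x i = i → i = 0 ∨ φ x = 1) (k : N)
    (hk : φ k 0 ≠ 0) : φ.range = alternatingGroup (Fin 5) := by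
  have hsub : ((T.map φ : Subgroup P5) : Set P5) ⊆ {1, pa, pb, pc} := by
    rintro _ ⟨x, hx, rfl⟩
    exact four _ (h0 x hx) (h2 x hx) (hf x hx)
  have hle : ({1, pa, pb, pc} : Set P5).ncard ≤ 4 := by
    have h1 := Set.ncard_insert_le (1 : P5) {pa, pb, pc}
    have h2 := Set.ncard_insert_le pa {pb, pc}
    have h3 := Set.ncard_insert_le pb {pc}
    rw [Set.ncard_singleton] at h3
    omega
  have heq : ((T.map φ : Subgroup P5) : Set P5) = {1, pa, pb, pc} :=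
    Set.eq_of_subset_of_ncard_le hsub (by
      rw [← Nat.card_coe_set_eq ((T.map φ : Subgroup P5) : Set P5)]
      exact hle.trans h4.ge)
  have hm : ∀ u : P5, (u = pa ∨ u = pb ∨ u = pc) → u ∈ φ.range := fun u hu =>
    map_le_range φ T (show u ∈ ((T.map φ : Subgroup P5) : Set P5) by
      rw [heq]; exact Or.inr hu)
  have hkm : φ k ∈ φ.range := ⟨k, rfl⟩
  have key : ∀ p : ℕ, p.Prime → (∃ u : P5, (u = pa ∨ u = pb ∨ u = pc) ∧
      (pa * (φ k * u * (φ k)⁻¹)) ^ p = 1 ∧ pa * (φ k * u * (φ k)⁻¹) ≠ 1) →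
      p ∣ Nat.card φ.range := by
    rintro p hp ⟨u, hu, e1, e2⟩
    have : Fact p.Prime := ⟨hp⟩
    rw [← orderOf_eq_prime e1 e2]
    exact orderOf_dvd_natCard _ (mul_mem (hm _ (Or.inl rfl))
      (mul_mem (mul_mem hkm (hm u hu)) (inv_mem hkm)))
  have d3 := key 3 Nat.prime_three (three _ hk)
  have d5 := key 5 Nat.prime_five (five _ hk)
  have e1 : Nat.card φ.range * φ.range.index = 120 := by
    rw [card_mul_index, Nat.card_eq_fintype_card, Fintype.card_perm]; rfl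
  have e2 : (T.map φ).relIndex φ.range ∣ T.index := by
    have := index_map_dvd T φ.rangeRestrict_surjective
    have e : T.map φ.rangeRestrict = (T.map φ).subgroupOf φ.range := by
      ext y
      rw [mem_subgroupOf]
      constructor
      · rintro ⟨x, hx, rfl⟩; exact ⟨x, hx, rfl⟩
      · rintro ⟨x, hx, e⟩; exact ⟨x, hx, Subtype.ext e⟩
    rwa [e] at this
  have e3 : 4 * (T.map φ).relIndex φ.range = Nat.card φ.range := by
    rw [← h4, relIndex, ← card_mul_index ((T.map φ).subgroupOf φ.range),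
      Nat.card_congr (subgroupOfEquivOfLe (map_le_range φ T)).toEquiv]
  have e4 : ¬ 2 ∣ (T.map φ).relIndex φ.range := fun e => hT (e.trans e2)
  apply Perm.eq_alternatingGroup_of_index_eq_two
  generalize (T.map φ).relIndex φ.range = r at e3 e4
  generalize φ.range.index = j at e1
  generalize Nat.card φ.range = m at *
  subst e3
  have hr : r ∣ 30 := ⟨j, by linarith⟩
  have hr' : r ≤ 30 := Nat.le_of_dvd (by norm_num) hr
  interval_cases r <;> omega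

end Cfsg.Agent.J2T.PP
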