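import Cfsg.Agent.J3S.A
import Cfsg.Agent.J3S.P0

/-! The normalizer of `Q` acts as `A₅` on the five singular points. -/

set_option autoImplicit false
set_option linter.unusedSectionVars false

namespace Cfsg.Agent.J2T

open Subgroup Cfsg.Agent.H10 Cfsg.Agent.JR
open scoped commutatorElement Pointwise

variable {G : Type*} [Group G] [Finite G]

/-- the singular points -/
def PSg (Q : Subgroup G) (z : G) : Type _ := {P : Set G // ∃ a ∈ Om Q z, P = {a, z * a}}

def PSg.mk {Q : Subgroup G} {z : G} (a : G) (ha : a ∈ Om Q z) : PSg Q z := ⟨{a, z * a}, a, ha, rfl⟩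

namespace SY

variable {S Q : Subgroup G} {z s a b g x : G} (h : SY S Q z s)
include h

theorem fixz (hg : g ∈ normalizer (Q : Set G)) : g * z * g⁻¹ = z := by
  have h1 : g * z * g⁻¹ ∈ zpowers z := h.zc _ ((mem_normalizer_iff.1 hg z).1 h.mem) fun q hq => by
    have := h.cent _ ((mem_normalizer_iff.1 (inv_mem hg) q).1 hq)
    calc q * (g * z * g⁻¹) = g * (g⁻¹ * q * g⁻¹⁻¹ * z) * g⁻¹ := by group
      _ = g * (z * (g⁻¹ * q * g⁻¹⁻¹)) * g⁻¹ := by rw [this]
      _ = g * z * g⁻¹ * q := by group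
  refine (h.mem_z.1 h1).resolve_left fun e => h.ne_one ?_
  calc z = g⁻¹ * (g * z * g⁻¹) * g := by group
    _ = 1 := by rw [e]; group

theorem conj_Om (hg : g ∈ normalizer (Q : Set G)) (ha : a ∈ Om Q z) : g * a * g⁻¹ ∈ Om Q z := by
  refine ⟨(mem_normalizer_iff.1 hg a).1 ha.1, ?_, fun e => ha.2.2 ?_⟩
  · calc g * a * g⁻¹ * (g * a * g⁻¹) = g * (a * a) * g⁻¹ := by group
      _ = 1 := by rw [ha.2.1]; group
  · rcases h.mem_z.1 e with e | e
    · have : a = 1 := by
        calc a = g⁻¹ * (g * a * g⁻¹) * g := by group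
          _ = 1 := by rw [e]; group
      rw [this]; exact one_mem _
    · have : a = z := by
        calc a = g⁻¹ * (g * a * g⁻¹) * g⁻¹⁻¹ := by group
          _ = z := by rw [e, h.fixz (inv_mem hg)]
      rw [this]; exact mem_zpowers z

theorem z_Om (ha : a ∈ Om Q z) : z * a ∈ Om Q z := by
  refine ⟨mul_mem h.mem ha.1, ?_, fun e => ha.2.2 ?_⟩
  · calc z * a * (z * a) = z * (a * z) * a := by group
      _ = z * z * (a * a) := by rw [h.cent a ha.1]; group
      _ = 1 := by rw [h.zz, ha.2.1, one_mul]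
  · exact (mul_mem_cancel_left (mem_zpowers z)).1 e

theorem pair_eq : ({a, z * a} : Set G) = {b, z * b} ↔ a = b ∨ a = z * b := by
  constructor
  · intro e
    have : a ∈ ({b, z * b} : Set G) := e ▸ Set.mem_insert _ _
    exact this
  · rintro (rfl | rfl)
    · rfl
    · rw [← mul_assoc, h.zz, one_mul, Set.pair_comm]

theorem mk_eq (ha : a ∈ Om Q z) (hb : b ∈ Om Q z) :
    PSg.mk a ha = PSg.mk b hb ↔ a = b ∨ a = z * b :=
  Subtype.ext_iff.trans h.pair_eq

theorem img (hg : g ∈ normalizer (Q : Set G)) (a : G) :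
    (fun x => g * x * g⁻¹) '' ({a, z * a} : Set G) = {g * a * g⁻¹, z * (g * a * g⁻¹)} := by
  rw [Set.image_pair]
  congr 2
  conv_rhs => rw [← h.fixz hg]
  group

/-- the action on singular points -/
@[reducible] def mact : MulAction (normalizer (Q : Set G)) (PSg Q z) where
  smul g P := ⟨(fun x => g.1 * x * g.1⁻¹) '' P.1, by
    obtain ⟨a, ha, e⟩ := P.2
    exact ⟨_, h.conj_Om g.2 ha, by rw [e, h.img g.2]⟩⟩
  one_smul P := Subtype.ext (by
    change (fun x => (1 : G) * x * (1 : G)⁻¹) '' P.1 = P.1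
    simp)
  mul_smul g k P := Subtype.ext (by
    change (fun x => (g.1 * k.1) * x * (g.1 * k.1)⁻¹) '' P.1 =
      (fun x => g.1 * x * g.1⁻¹) '' ((fun x => k.1 * x * k.1⁻¹) '' P.1)
    rw [Set.image_image]
    congr 1
    funext x
    group)

def phi : normalizer (Q : Set G) →* Equiv.Perm (PSg Q z) :=
  @MulAction.toPermHom _ _ _ h.mact

theorem phi_mk (g : normalizer (Q : Set G)) (ha : a ∈ Om Q z) :
    h.phi g (PSg.mk a ha) = PSg.mk _ (h.conj_Om g.2 ha) :=
  Subtype.ext (h.img g.2 a)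

theorem phi_fix (g : normalizer (Q : Set G)) (ha : a ∈ Om Q z) :
    h.phi g (PSg.mk a ha) = PSg.mk a ha ↔ ⁅g.1, a⁆ ∈ zpowers z := by
  rw [h.phi_mk, h.mk_eq, h.mem_z, commutatorElement_def, mul_inv_eq_one,
    mul_inv_eq_iff_eq_mul (b := a)]

theorem card_PSg : Nat.card (PSg Q z) = 5 := by
  classical
  have : Fintype G := Fintype.ofFinite G
  have h1 := Finset.card_eq_sum_card_image (fun a : G => ({a, z * a} : Set G)) (Om Q z).toFinset
  rw [← Set.ncard_eq_toFinset_card', h.om, Finset.sum_congr rfl (g := fun _ => 2), Finset.sum_const,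
    smul_eq_mul] at h1
  · have h2 : Nat.card (PSg Q z) =
        ((Om Q z).toFinset.image (fun a : G => ({a, z * a} : Set G))).card :=
      Nat.subtype_card _ fun P => by
        simp only [Finset.mem_image, Set.mem_toFinset]
        exact ⟨fun ⟨a, ha, e⟩ => ⟨a, ha, e.symm⟩, fun ⟨a, ha, e⟩ => ⟨a, ha, e.symm⟩⟩
    omega
  · intro P hP
    obtain ⟨a, ha, rfl⟩ := Finset.mem_image.1 hP
    rw [Set.mem_toFinset] at ha
    rw [← Finset.card_pair (a := a) (b := z * a) (by simpa using h.ne_one)]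
    congr 1
    ext b
    simp only [Finset.mem_filter, Set.mem_toFinset, h.pair_eq, Finset.mem_insert,
      Finset.mem_singleton]
    refine ⟨fun e => e.2, fun e => ⟨?_, e⟩⟩
    rcases e with rfl | rfl
    · exact ha
    · exact h.z_Om ha

/-- centralizing the singular points forces centralizing `Q/⟨z⟩` -/
theorem all_of_Om (hx : x ∈ normalizer (Q : Set G)) (e : ∀ a ∈ Om Q z, ⁅x, a⁆ ∈ zpowers z) :
    ∀ q ∈ Q, ⁅x, q⁆ ∈ zpowers z := by
  let K : Subgroup G :=
    { carrier := {q | q ∈ Q ∧ ⁅x, q⁆ ∈ zpowers z}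
      one_mem' := ⟨one_mem _, by simp⟩
      mul_mem' := by
        rintro p q ⟨hp, e1⟩ ⟨hq, e2⟩
        refine ⟨mul_mem hp hq, ?_⟩
        have : ⁅x, p * q⁆ = ⁅x, p⁆ * (p * ⁅x, q⁆ * p⁻¹) := by
          simp only [commutatorElement_def]; group
        rw [this, h.comm_of_mem_z e2 (h.cent p hp), mul_inv_cancel_right]
        exact mul_mem e1 e2
      inv_mem' := by
        rintro p ⟨hp, e1⟩
        refine ⟨inv_mem hp, ?_⟩
        have : ⁅x, p⁻¹⁆ = p⁻¹ * ⁅x, p⁆⁻¹ * p⁻¹⁻¹ := by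
          simp only [commutatorElement_def]; group
        rw [this, h.comm_of_mem_z (inv_mem e1) (h.cent _ (inv_mem hp)), mul_inv_cancel_right]
        exact inv_mem e1 }
  have hK : K ≤ Q := fun q hq => hq.1
  have hO : ∀ a ∈ Om Q z, a ∈ K := fun a ha => ⟨ha.1, e a ha⟩
  set U : Set G := (fun a => a * s) '' (Om Q z \ (Vs z s : Set G)) with hU
  have c1 : 6 ≤ U.ncard := by
    rw [hU, Set.ncard_image_of_injective _ (mul_left_injective s)]
    have h1 := Set.ncard_le_ncard_sdiff_add_ncard (Om Q z) (t := (Vs z s : Set G))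
    have h2 := h.ncard_Vs h.sOm
    rw [h.om] at h1
    omega
  have hUz : ∀ u ∈ U, u * u = z := by
    rintro _ ⟨a, ⟨ha, hn⟩, rfl⟩
    have hne : s * a ≠ a * s := fun e' => hn (h.main s h.sOm a ha.1 e'.symm ha.2.1)
    simp only
    rw [h.sq_mul ha.1 h.sOm.1 hne, ha.2.1, h.sOm.2.1, mul_one, mul_one]
  have c2 : (Om Q z ∪ U).ncard = 10 + U.ncard := by
    rw [Set.ncard_union_eq (Set.disjoint_left.2 fun u hu hu' =>
      h.ne_one ((hUz u hu').symm.trans hu.2.1)), h.om]
  have c3 : (insert (1 : G) (Om Q z ∪ U)).ncard = (Om Q z ∪ U).ncard + 1 :=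
    Set.ncard_insert_of_notMem (by
      rintro (e' | e')
      · exact e'.2.2 (one_mem _)
      · exact h.ne_one ((hUz 1 e').symm.trans (one_mul 1)))
  have c4 : (insert (1 : G) (Om Q z ∪ U)).ncard ≤ Nat.card K := by
    rw [← ncard_coe K]
    refine Set.ncard_le_ncard ?_
    rintro u (rfl | hu | ⟨a, ha, rfl⟩)
    · exact K.one_mem
    · exact hO u hu
    · exact K.mul_mem (hO a ha.1) (hO s h.sOm)
  have c5 : Nat.card K ∣ 32 := h.cq ▸ card_dvd_of_le hK
  have c6 : Nat.card K = 32 := by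
    have := Nat.le_of_dvd (by norm_num) c5
    have c7 : 17 ≤ Nat.card K := by omega
    generalize Nat.card K = m at *
    interval_cases m <;> omega
  have : K = Q := eq_of_le_of_card_ge hK (by rw [c6, h.cq])
  intro q hq
  rw [← this] at hq
  exact hq.2

theorem phi_eq_one (x : normalizer (Q : Set G)) :
    h.phi x = 1 ↔ ∀ q ∈ Q, ⁅x.1, q⁆ ∈ zpowers z := by
  constructor
  · intro e
    exact h.all_of_Om x.2 fun a ha => (h.phi_fix x ha).1 (by rw [e]; rfl)
  · intro e
    ext1 P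
    obtain ⟨_, a, ha, rfl⟩ := P
    exact (h.phi_fix x ha).2 (e a ha.1)

theorem S_le_N : S ≤ normalizer (Q : Set G) := fun x hx =>
  mem_normalizer_iff.2 fun q => ⟨h.nQ x hx q, fun e => by
    have := h.nQ _ (inv_mem hx) _ e
    rwa [show x⁻¹ * (x * q * x⁻¹) * x⁻¹⁻¹ = q by group] at this⟩

theorem act (hS : H1.IsSylowIn 2 S ⊤) {k : G} (k1 : k ∈ normalizer (Q : Set G))
    (k2 : k * s * k⁻¹ * s ≠ s * (k * s * k⁻¹)) :
    ∃ π : normalizer (Q : Set G) →* A5, Function.Surjective π ∧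
      ∀ x, π x = 1 ↔ ∀ q ∈ Q, ⁅x.1, q⁆ ∈ zpowers z := by
  classical
  have hfin : Finite (PSg Q z) := Nat.finite_of_card_ne_zero (by rw [h.card_PSg]; norm_num)
  let e0 : PSg Q z ≃ Fin 5 := (Finite.equivFinOfCardEq h.card_PSg)
  let p0 : PSg Q z := PSg.mk s h.sOm
  let e : PSg Q z ≃ Fin 5 := e0.trans (Equiv.swap (e0 p0) 0)
  have he : e p0 = 0 := by simp [e]
  have he' : e.symm 0 = p0 := by rw [← he, e.symm_apply_apply]
  let φ : normalizer (Q : Set G) →* PP.P5 := e.permCongrHom.toMonoidHom.comp h.phi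
  have hφ : ∀ x i, φ x i = e (h.phi x (e.symm i)) := fun x i => rfl
  have hφ1 : ∀ x, φ x = 1 ↔ ∀ q ∈ Q, ⁅x.1, q⁆ ∈ zpowers z := fun x => by
    rw [← h.phi_eq_one]
    exact e.permCongrHom.map_eq_one_iff
  have hQ1 : ∀ x : normalizer (Q : Set G), x.1 ∈ Q → φ x = 1 := fun x hx =>
    (hφ1 x).2 fun q hq => h.comm_mem hx hq
  obtain ⟨a', ha', ea'⟩ := h.exists_s'
  let T : Subgroup (normalizer (Q : Set G)) := S.subgroupOf _
  have hr : φ.range = alternatingGroup (Fin 5) := by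
    refine PP.perm5 φ T (hS.of_le h.S_le_N le_top).not_dvd ?_ ?_ ?_ ?_ ⟨k, k1⟩ ?_
    · have e1 : φ.ker ⊓ T = Q.subgroupOf _ := by
        ext x
        rw [mem_inf, MonoidHom.mem_ker, mem_subgroupOf, mem_subgroupOf]
        exact ⟨fun e => h.cs a' ha' ea' _ e.2 ((hφ1 x).1 e.1 a' ha'.1),
          fun e => ⟨hQ1 x e, h.le e⟩⟩
      have e2 : φ.ker.relIndex T = Nat.card (T.map φ) := relIndex_ker T φ
      have e3 : Nat.card (φ.ker ⊓ T : Subgroup _) * φ.ker.relIndex T = Nat.card T := by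
        rw [← inf_relIndex_right, relIndex, ← card_mul_index ((φ.ker ⊓ T).subgroupOf T),
          Nat.card_congr (subgroupOfEquivOfLe (inf_le_right : φ.ker ⊓ T ≤ T)).toEquiv]
      rw [e1, e2, Nat.card_congr (subgroupOfEquivOfLe (h.le.trans h.S_le_N)).toEquiv,
        Nat.card_congr (subgroupOfEquivOfLe h.S_le_N).toEquiv, h.cq, h.cS] at e3
      omega
    · intro x hx
      rw [hφ, he', ← he]
      congr 1
      rw [h.phi_mk, h.mk_eq]
      exact h.sS _ hx
    · intro x hx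
      rw [← map_mul]
      exact hQ1 _ (h.sqQ _ hx)
    · intro x hx i hi
      rw [hφ] at hi
      obtain ⟨P, rfl⟩ := e.surjective i
      rw [e.symm_apply_apply, e.apply_eq_iff_eq] at hi
      obtain ⟨_, a, ha, rfl⟩ := P
      have hc := (h.phi_fix x ha).1 hi
      by_cases hs : a * s = s * a
      · left
        rw [← he]
        congr 1
        refine (h.mk_eq ha h.sOm).2 ?_
        rcases (h.mem_Vs h.sOm).1 (h.main s h.sOm a ha.1 hs ha.2.1) with e' | e' | e'
        · exact absurd (e' ▸ one_mem _) ha.2.2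
        · exact absurd (e' ▸ mem_zpowers z) ha.2.2
        · exact e'
      · exact Or.inr (hQ1 x (h.cs a ha hs _ hx hc))
    · rw [hφ, he', ← he, Ne, e.apply_eq_iff_eq, h.phi_mk, h.mk_eq]
      rintro (e' | e') <;> apply k2 <;> change k * s * k⁻¹ = _ at e' <;> rw [e']
      rw [← mul_assoc, h.cent s h.sOm.1]
  refine ⟨φ.codRestrict _ fun x => hr.le ⟨x, rfl⟩, fun y => ?_, fun x => ?_⟩
  · obtain ⟨x, hx⟩ : y.1 ∈ φ.range := hr.ge y.2
    exact ⟨x, Subtype.ext hx⟩
  · rw [← hφ1]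
    exact Subtype.ext_iff

end SY

end Cfsg.Agent.J2T
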