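import Cfsg.Agent.J3S.A
import Cfsg.Agent.H12.Triangle
import Cfsg.Agent.H12.TC

/-! Uniqueness of the group `2^{1+4}_- : A₅` with a Sylow 2-subgroup of type `J₂`. -/

set_option autoImplicit false
set_option linter.unusedSectionVars false
set_option linter.unusedVariables false
set_option maxRecDepth 100000

namespace Cfsg.Agent.J2T

open Subgroup Cfsg.Agent.H10 Cfsg.Agent.JR
open scoped commutatorElement Pointwise

namespace PU

theorem card_sup_le {G : Type*} [Group G] {H K : Subgroup G} (h : K ≤ normalizer (H : Set G)) :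
    Nat.card (H ⊔ K : Subgroup G) ≤ Nat.card H * Nat.card K := by
  have := Set.natCard_mul_le (s := (H : Set G)) (t := (K : Set G))
  rwa [← coe_mul_of_right_le_normalizer_left H K h] at this

theorem card_zp {G : Type*} [Group G] {x : G} (h : x * x = 1) : Nat.card (zpowers x) ≤ 2 := by
  rw [Nat.card_zpowers]
  exact orderOf_le_of_pow_eq_one (by norm_num) (by rw [pow_two, h])

/-- generators and relations -/
structure Dat {G : Type*} [Group G] (φ : A5 →* G) (σ : Fin 5 → G) (z : G) : Prop where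
  eq : ∀ y i, φ y * σ i * (φ y)⁻¹ = σ (y.1 i)
  sq : ∀ i, σ i * σ i = 1
  an : ∀ i j, i ≠ j → σ i * σ j = z * (σ j * σ i)
  zz : z * z = 1
  zσ : ∀ i, σ i * z = z * σ i
  zφ : ∀ y, φ y * z = z * φ y
  pr : σ 4 * σ 3 * σ 2 * σ 1 * σ 0 = 1

/-- the extraspecial part -/
def LL {G : Type*} [Group G] (σ : Fin 5 → G) (z : G) : Subgroup G :=
  zpowers z ⊔ zpowers (σ 0) ⊔ zpowers (σ 1) ⊔ zpowers (σ 2) ⊔ zpowers (σ 3)

theorem LL_le {G : Type*} [Group G] {σ : Fin 5 → G} {z : G} {K : Subgroup G} (hz : z ∈ K) (h : ∀ i, σ i ∈ K) :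
    LL σ z ≤ K := by
  simp only [LL, sup_le_iff, zpowers_le, hz, h, and_self]

theorem LL_map {G G' : Type*} [Group G] [Group G'] (f : G →* G') (σ : Fin 5 → G) (z : G) :
    (LL σ z).map f = LL (fun i => f (σ i)) (f z) := by
  simp only [LL, Subgroup.map_sup, MonoidHom.map_zpowers]

namespace Dat

variable {G : Type*} [Group G] [Finite G] {φ : A5 →* G} {σ : Fin 5 → G} {z : G} (d : Dat φ σ z)
include d

theorem zL : z ∈ LL σ z :=
  mem_sup_left (mem_sup_left (mem_sup_left (mem_sup_left (mem_zpowers z))))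

theorem σL (i : Fin 5) : σ i ∈ LL σ z := by
  have h0 : σ 0 ∈ LL σ z := mem_sup_left (mem_sup_left (mem_sup_left (mem_sup_right (mem_zpowers _))))
  have h1 : σ 1 ∈ LL σ z := mem_sup_left (mem_sup_left (mem_sup_right (mem_zpowers _)))
  have h2 : σ 2 ∈ LL σ z := mem_sup_left (mem_sup_right (mem_zpowers _))
  have h3 : σ 3 ∈ LL σ z := mem_sup_right (mem_zpowers _)
  fin_cases i
  exacts [h0, h1, h2, h3, (mul_mem_cancel_right h3).1 ((mul_mem_cancel_right h2).1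
    ((mul_mem_cancel_right h1).1 ((mul_mem_cancel_right h0).1 (d.pr ▸ one_mem _))))]

theorem nL (y : A5) : φ y ∈ normalizer (LL σ z : Set G) := by
  refine H11.mem_normalizer_of_cj_le (H11.cj_le_iff'.2 (LL_le ?_ fun i => ?_)) <;>
    rw [H11.mem_cj, inv_inv]
  · rw [d.zφ, mul_inv_cancel_right]; exact d.zL
  · rw [d.eq]; exact d.σL _

theorem step (i : Fin 5) {H : Subgroup G} (hz : z ∈ H) (hH : H ≤ LL σ z) :
    Nat.card (H ⊔ zpowers (σ i) : Subgroup G) ≤ Nat.card H * 2 := by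
  refine (card_sup_le (zpowers_le.2 (H11.mem_normalizer_of_forall fun x hx => ?_))).trans
    (Nat.mul_le_mul_left _ (card_zp (d.sq i)))
  let K : Subgroup G :=
    { carrier := {x | x * z = z * x ∧ (σ i * x * (σ i)⁻¹ = x ∨ σ i * x * (σ i)⁻¹ = z * x)}
      one_mem' := ⟨by simp, Or.inl (by simp)⟩
      mul_mem' := fun {a b} ⟨a1, a2⟩ ⟨b1, b2⟩ => ⟨by rw [mul_assoc, b1, ← mul_assoc, a1, mul_assoc], by
        rw [← conj_mul]
        rcases a2 with a2 | a2 <;> rcases b2 with b2 | b2 <;> rw [a2, b2]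
        · exact Or.inl rfl
        · right; rw [← mul_assoc, a1, mul_assoc]
        · right; rw [mul_assoc]
        · left; rw [mul_assoc, ← mul_assoc a, a1, ← mul_assoc, ← mul_assoc, d.zz, one_mul]⟩
      inv_mem' := fun {a} ⟨a1, a2⟩ => ⟨((show Commute a z from a1).inv_left).eq, by
        rw [← conj_inv]
        rcases a2 with a2 | a2 <;> rw [a2]
        · exact Or.inl rfl
        · right; rw [← a1, mul_inv_rev, inv_eq_of_mul_eq_one_right d.zz]⟩ }
  have : LL σ z ≤ K := LL_le ⟨rfl, Or.inl (by rw [d.zσ, mul_inv_cancel_right])⟩ fun j => ⟨d.zσ j, by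
    by_cases e : i = j
    · left; rw [e, mul_inv_cancel_right]
    · right; rw [d.an i j e, ← mul_assoc, mul_inv_cancel_right]⟩
  rcases (this (hH hx)).2 with e | e <;> rw [e]
  exacts [hx, mul_mem hz hx]

theorem cardL : Nat.card (LL σ z) ≤ 32 := by
  have h0 := card_zp d.zz
  have z0 := mem_zpowers z
  have h1 := d.step 0 z0 (le_sup_left.trans (le_sup_left.trans (le_sup_left.trans le_sup_left)))
  have h2 := d.step 1 (mem_sup_left z0) (le_sup_left.trans (le_sup_left.trans le_sup_left))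
  have h3 := d.step 2 (mem_sup_left (mem_sup_left z0)) (le_sup_left.trans le_sup_left)
  have h4 := d.step 3 (mem_sup_left (mem_sup_left (mem_sup_left z0))) le_sup_left
  unfold LL
  omega

theorem cardD : Nat.card (LL σ z ⊔ φ.range : Subgroup G) ≤ 1920 := by
  have h1 := card_sup_le (H := LL σ z) (K := φ.range) (by rintro _ ⟨y, rfl⟩; exact d.nL y)
  have h2 : Nat.card φ.range ≤ 60 :=
    card_A5 ▸ Nat.card_le_card_of_surjective _ φ.rangeRestrict_surjective
  exact h1.trans (Nat.mul_le_mul d.cardL h2)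

theorem prod {G' : Type*} [Group G'] {φ' : A5 →* G'} {σ' : Fin 5 → G'} {z' : G'} (d' : Dat φ' σ' z') :
    Dat (φ.prod φ') (fun i => (σ i, σ' i)) (z, z') :=
  ⟨fun y i => Prod.ext (d.eq y i) (d'.eq y i), fun i => Prod.ext (d.sq i) (d'.sq i),
    fun i j e => Prod.ext (d.an i j e) (d'.an i j e), Prod.ext d.zz d'.zz,
    fun i => Prod.ext (d.zσ i) (d'.zσ i), fun y => Prod.ext (d.zφ y) (d'.zφ y), Prod.ext d.pr d'.pr⟩

theorem iso {G' : Type*} [Group G'] [Finite G'] {φ' : A5 →* G'} {σ' : Fin 5 → G'} {z' : G'}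
    (d' : Dat φ' σ' z') (t : LL σ z ⊔ φ.range = ⊤) (t' : LL σ' z' ⊔ φ'.range = ⊤)
    (c : Nat.card G = 1920) (c' : Nat.card G' = 1920) : Nonempty (G ≃* G') := by
  have h0 := (d.prod d').cardD
  rw [← c] at h0
  obtain ⟨f, hf⟩ := H12.exists_hom_of_card_le _ (by
    rw [Subgroup.map_sup, LL_map, MonoidHom.map_range, MonoidHom.fst_comp_prod]; exact t) h0
  have hs : Function.Surjective f := fun g => by
    have : g ∈ (LL (fun i => (σ i, σ' i)) (z, z') ⊔ (φ.prod φ').range).map (MonoidHom.snd G G') := by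
      rw [Subgroup.map_sup, LL_map, MonoidHom.map_range, MonoidHom.snd_comp_prod]
      exact t'.ge (mem_top g)
    obtain ⟨x, hx, rfl⟩ := this
    exact ⟨x.1, hf x hx⟩
  exact ⟨MulEquiv.ofBijective f ((Nat.bijective_iff_surjective_and_card f).2 ⟨hs, c.trans c'.symm⟩)⟩

end Dat

theorem A5_stab : ∀ y : A5, y.1 4 = 4 → ∃ i k : Fin 3, ∃ j : Fin 2,
    y = r5 ^ (i : ℕ) * a5 ^ (j : ℕ) * r5 ^ (k : ℕ) := by decide +kernel

theorem A5_tr : ∀ i : Fin 5, ∃ y : A5, y.1 4 = i := by decide +kernel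

theorem A5_five : ∀ i j : Fin 5, i ≠ j → ∃ y : A5, y ^ 5 = 1 ∧ y ≠ 1 ∧ y.1 i = j := by decide +kernel

theorem A5_cent : Nat.card (centralizer ({a5} : Set A5)) = 4 := by
  rw [show Nat.card (centralizer ({a5} : Set A5)) = Nat.card {y : A5 // y * a5 = a5 * y} from
    Nat.card_congr (Equiv.subtypeEquivRight fun y => mem_centralizer_singleton_iff), Nat.card_eq_fintype_card]
  decide +kernel

theorem A5_misc : r5⁻¹ * a5 * r5 * a5 = a5 * (r5⁻¹ * a5 * r5) ∧ r5 ^ 3 = 1 ∧ H12.alt5b ^ 4 = H12.alt5b ∧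
    (a5 * H12.alt5b) ^ 16 ≠ 1 ∧ (a5 * H12.alt5b) ^ 5 = 1 ∧ a5 * H12.alt5b ≠ 1 ∧ (a5 * H12.alt5b).1 4 = 3 ∧
    (a5 * H12.alt5b).1 3 = 2 ∧ (a5 * H12.alt5b).1 2 = 1 ∧ (a5 * H12.alt5b).1 1 = 0 ∧
    (a5 * H12.alt5b).1 0 = 4 := by decide +kernel

theorem A5_inv : ∀ a : A5, a * a = 1 → a ≠ 1 → ∃ c : A5, c * a * c⁻¹ = a5 := by decide +kernel

variable {G : Type*} [Group G] [Finite G] {S Q : Subgroup G} {z s : G}

theorem five (h : JW Q z) {f q : G} (hf : f * z = z * f) (h5 : orderOf f = 5) (hq : q ∈ Q)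
    (hc : ⁅f, q⁆ ∈ zpowers z) : q ∈ zpowers z := by
  refine (h.cent5 (mem_Ce.2 hf) h5).le ⟨hq, mem_Ce.2 (commutatorElement_eq_one_iff_mul_comm.1
    ((h.mem_z.1 hc).resolve_right fun e => h.ne_one ?_)).symm⟩
  have e1 : f * q * f⁻¹ = z * q := by rw [← e, commutatorElement_def, inv_mul_cancel_right]
  have e2 : f * (f * q * f⁻¹) * f⁻¹ = q := by
    rw [e1, ← conj_mul, e1, hf, mul_inv_cancel_right, ← mul_assoc, h.zz, one_mul]
  have e3 : Commute (f ^ 2) q := mul_inv_eq_iff_eq_mul.1 (by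
    rw [sq]; exact Eq.trans (by group) e2)
  have e4 := e3.pow_left 3
  rw [← pow_mul, show 2 * 3 = 5 + 1 from rfl, pow_succ, ← h5, pow_orderOf_eq_one, one_mul] at e4
  rw [← e, commutatorElement_eq_one_iff_commute.2 e4]

theorem cardG (h : SY S Q z s) {π : G →* A5} (sur : Function.Surjective π) (ker : ∀ x, π x = 1 ↔ x ∈ Q) :
    Nat.card G = 1920 := by
  have e : π.ker = Q := Subgroup.ext ker
  rw [← π.ker.card_mul_index, index_ker, MonoidHom.range_eq_top.2 sur, card_top, card_A5, e, h.cq]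

theorem jw (h : SY S Q z s) (hz : ∀ g, g * z = z * g) (hC : ∀ c, (∀ q ∈ Q, q * c = c * q) → c ∈ zpowers z)
    {π : G →* A5} (sur : Function.Surjective π) (ker : ∀ x, π x = 1 ↔ x ∈ Q) : JW Q z := by
  have e : π.ker = Q := Subgroup.ext ker
  haveI : Q.Normal := e ▸ π.normal_ker
  refine ⟨⟨h.toXS, hC, le_normalizer_of_normal⟩, h.cq, ?_⟩
  rw [show Ce z = ⊤ from eq_top_iff.2 fun g _ => mem_Ce.2 (hz g), card_top, cardG h sur ker]

theorem o5 {f : G} (h1 : f ^ 5 = 1) (h2 : f ≠ 1) : orderOf f = 5 :=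
  haveI : Fact (Nat.Prime 5) := ⟨Nat.prime_five⟩
  orderOf_eq_prime h1 h2

theorem exists_split (h : SY S Q z s) (hz : ∀ g, g * z = z * g) (j : JW Q z) {π : G →* A5}
    (sur : Function.Surjective π) (ker : ∀ x, π x = 1 ↔ x ∈ Q) {a : G} (aS : a ∈ S) (aa : a * a = 1)
    (pa : π a = a5) : ∃ φ : A5 →* G, (∀ y, π (φ y) = y) ∧ φ a5 ∈ S := by
  obtain ⟨-, -, m3, m4, m5, -⟩ := A5_misc
  have q4 : ∀ q ∈ Q, q ^ 4 = 1 := fun q hq => by
    rw [show q ^ 4 = q * q * (q * q) by norm_num [pow_succ, mul_assoc]]; exact h.sq_of_mem_z (h.sq q hq)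
  obtain ⟨b0, hb⟩ := sur H12.alt5b
  have b3 : (b0 ^ 4) ^ 3 = 1 := by
    rw [← pow_mul, mul_comm, pow_mul]; exact q4 _ ((ker _).1 (by rw [map_pow, hb, H12.alt5_rels.2.1]))
  have pb : π (b0 ^ 4) = H12.alt5b := by rw [map_pow, hb, m3]
  generalize b0 ^ 4 = b at b3 pb
  have fin : ∀ a ∈ S, a * a = 1 → π a = a5 → (a * b) ^ 5 = 1 → ∃ φ : A5 →* G, (∀ y, π (φ y) = y) ∧ φ a5 ∈ S := by
    intro a aS aa pa e
    obtain ⟨φ, f1, f2⟩ := H12.exists_hom_alt5 (by rw [pow_two, aa]) b3 e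
    have f1' : φ a5 = a := f1
    refine ⟨φ, fun y => ?_, f1' ▸ aS⟩
    have : π.comp φ = MonoidHom.id _ := MonoidHom.eq_of_eqOn_dense H12.closure_alt5 (by
      rintro _ (rfl | rfl)
      · exact (congrArg π f1).trans pa
      · exact (congrArg π f2).trans pb)
    exact DFunLike.congr_fun this y
  have wQ : (a * b) ^ 5 ∈ Q := (ker _).1 (by rw [map_pow, map_mul, pa, pb, m5])
  have f5 : orderOf ((a * b) ^ 16) = 5 := o5 (by
    rw [← pow_mul, show 16 * 5 = 5 * 4 * 4 from rfl, pow_mul, pow_mul, q4 _ wQ, one_pow])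
    fun e => m4 (by rw [← pa, ← pb, ← map_mul, ← map_pow, e, map_one])
  rcases h.mem_z.1 ((j.cent5 (mem_Ce.2 (hz _)) f5).le ⟨wQ, mem_Ce.2 (Commute.pow_pow_self _ _ _).eq⟩) with e | e
  · exact fin a aS aa pa e
  · refine fin (z * a) (S.mul_mem (h.le h.mem) aS) ?_ (by rw [map_mul, (ker z).2 h.mem, one_mul, pa]) ?_
    · rw [mul_assoc, ← mul_assoc a, hz a, mul_assoc, aa, mul_one, h.zz]
    · rw [mul_assoc, (show Commute z (a * b) from (hz _).symm).mul_pow, e, ← pow_succ,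
        show 5 + 1 = 2 * 3 from rfl, pow_mul, pow_two, h.zz, one_pow]

theorem fix (h : SY S Q z s) (hz : ∀ g, g * z = z * g) (j : JW Q z) {π : G →* A5}
    (sur : Function.Surjective π) (ker : ∀ x, π x = 1 ↔ x ∈ Q) {φ : A5 →* G} (hφ : ∀ y, π (φ y) = y)
    (aS : φ a5 ∈ S) (y : A5) (hy : y.1 4 = 4) : φ y * s = s * φ y := by
  obtain ⟨m1, m2, -⟩ := A5_misc
  have aQ : φ a5 ∉ Q := fun e => H12.alt5_rels.2.2.2 ((hφ a5).symm.trans ((ker _).2 e))
  have aa : φ a5 * φ a5 = 1 := by rw [← map_mul, ← pow_two, show a5 ^ 2 = 1 from H12.alt5_rels.1, map_one]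
  have hP : S = (centralizer ({a5} : Set A5)).comap π := by
    refine eq_of_le_of_card_ge (fun x hx => mem_centralizer_singleton_iff.2 ?_) ?_
    · have e1 := (ker _).2 (h.sqQ x hx)
      have e2 := (ker _).2 (h.sqQ _ (S.mul_mem hx aS))
      simp only [map_mul, hφ] at e1 e2
      rw [eq_inv_of_mul_eq_one_left e2, mul_inv_rev, inv_eq_of_mul_eq_one_left e1,
        inv_eq_of_mul_eq_one_left (show a5 * a5 = 1 by decide +kernel)]
    · have e1 := ((centralizer ({a5} : Set A5)).comap π).card_mul_index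
      have e2 := (centralizer ({a5} : Set A5)).card_mul_index
      rw [index_comap_of_surjective _ sur, cardG h sur ker] at e1
      rw [A5_cent, card_A5] at e2
      rw [h.cS]
      have : (centralizer ({a5} : Set A5)).index = 15 := by omega
      rw [this] at e1; omega
  have hr : φ r5 * s = s * φ r5 := by
    have cS : (φ r5)⁻¹ * φ a5 * φ r5 ∈ S := by
      rw [hP, mem_comap, mem_centralizer_singleton_iff]; simpa only [map_mul, map_inv, hφ] using m1
    have c3 : φ r5 ^ 3 = 1 := by rw [← map_pow, m2, map_one]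
    generalize φ r5 = c at cS c3
    have uO : c * s * c⁻¹ ∈ Om Q z := (j.norm_Om (mem_Ce.2 (hz c)) s).1 h.sOm
    have us : c * s * c⁻¹ * s = s * (c * s * c⁻¹) := by
      by_contra e
      refine aQ (h.cs _ uO e _ aS ?_)
      rw [show ⁅φ a5, c * s * c⁻¹⁆ = c * (c⁻¹ * φ a5 * c * s * (c⁻¹ * φ a5 * c)⁻¹ * s⁻¹) * c⁻¹ by
        simp only [commutatorElement_def]; group]
      rcases h.sS _ cS with e | e <;> rw [e]
      · simp
      · rw [mul_inv_cancel_right, hz, mul_inv_cancel_right]; exact mem_zpowers z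
    rcases (h.mem_Vs h.sOm).1 (h.main s h.sOm _ uO.1 us uO.2.1) with e | e | e | e
    · exact absurd (e ▸ one_mem _) uO.2.2
    · exact absurd (e ▸ mem_zpowers _) uO.2.2
    · exact mul_inv_eq_iff_eq_mul.1 e
    · have e2 : c * (c * s * c⁻¹) * c⁻¹ = s := by
        rw [e, ← conj_mul, e, hz c, mul_inv_cancel_right, ← mul_assoc, h.zz, one_mul]
      have e3 : Commute (c ^ 2) s := mul_inv_eq_iff_eq_mul.1 (by rw [sq]; exact Eq.trans (by group) e2)
      have e4 := e3.pow_left 2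
      rw [← pow_mul, show 2 * 2 = 3 + 1 from rfl, pow_succ, c3, one_mul] at e4
      exact e4.eq
  obtain ⟨i, k, l, rfl⟩ := A5_stab y hy
  simp only [map_mul, map_pow]
  exact ((((show Commute _ s from hr).pow_left _).mul_left
    ((show Commute _ s from (h.out _ aS aQ aa).1).pow_left _)).mul_left
    ((show Commute _ s from hr).pow_left _)).eq

theorem exists_dat (h : SY S Q z s) (hz : ∀ g, g * z = z * g)
    (hC : ∀ c, (∀ q ∈ Q, q * c = c * q) → c ∈ zpowers z) (π0 : G →* A5)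
    (sur0 : Function.Surjective π0) (ker0 : ∀ x, π0 x = 1 ↔ x ∈ Q) :
    ∃ (φ : A5 →* G) (σ : Fin 5 → G), Dat φ σ z ∧ LL σ z ⊔ φ.range = ⊤ := by
  have j := jw h hz hC sur0 ker0
  obtain ⟨x, xS, xQ⟩ : ∃ x ∈ S, x ∉ Q := by
    by_contra! e
    have := card_le_of_le (show S ≤ Q from e)
    rw [h.cS, h.cq] at this; omega
  obtain ⟨q, hq, aa⟩ := h.coset x xS
  obtain ⟨c, hc⟩ := A5_inv (π0 (q * x)) (by rw [← map_mul, aa, map_one])
    fun e => xQ ((mul_mem_cancel_left hq).1 ((ker0 _).1 e))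
  let π : G →* A5 := (MulAut.conj c).toMonoidHom.comp π0
  have sur : Function.Surjective π := (MulAut.conj c).surjective.comp sur0
  have ker : ∀ x, π x = 1 ↔ x ∈ Q := fun x => ((MulAut.conj c).map_eq_one_iff).trans (ker0 x)
  obtain ⟨φ, hφ, aS⟩ := exists_split h hz j sur ker (S.mul_mem (h.le hq) xS) aa hc
  have hf := fix h hz j sur ker hφ aS
  choose t ht using A5_tr
  obtain ⟨σ, hσ⟩ : ∃ σ : Fin 5 → G, σ = fun i => φ (t i) * s * (φ (t i))⁻¹ := ⟨_, rfl⟩
  have eq : ∀ y i, φ y * σ i * (φ y)⁻¹ = σ (y.1 i) := fun y i => by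
    have := hf ((t (y.1 i))⁻¹ * y * t i) (by
      change ((t (y.1 i)).1)⁻¹ (y.1 ((t i).1 4)) = 4
      rw [ht, Equiv.Perm.inv_eq_iff_eq, ht])
    simp only [map_mul, map_inv] at this
    simp only [hσ]
    rw [show φ y * (φ (t i) * s * (φ (t i))⁻¹) * (φ y)⁻¹ = φ (t (y.1 i)) *
      ((φ (t (y.1 i)))⁻¹ * φ y * φ (t i) * s) * (φ y * φ (t i))⁻¹ by group, this]
    group
  have om : ∀ i, σ i ∈ Om Q z := fun i => by
    rw [hσ]; exact (j.norm_Om (mem_Ce.2 (hz _)) s).1 h.sOm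
  have φ5 : ∀ y : A5, y ^ 5 = 1 → y ≠ 1 → orderOf (φ y) = 5 := fun y h1 h2 =>
    o5 (by rw [← map_pow, h1, map_one]) fun e => h2 (by rw [← hφ y, e, map_one])
  have an : ∀ i k, i ≠ k → σ i * σ k = z * (σ k * σ i) := fun i k e => by
    refine h.mul_eq_of_ne (om i).1 (om k).1 fun e' => (om i).2.2 ?_
    obtain ⟨y, y1, y2, y3⟩ := A5_five i k e
    refine five j (hz _) (φ5 y y1 y2) (om i).1 ?_
    rw [commutatorElement_def, eq, y3]
    rcases (h.mem_Vs (om i)).1 (h.main _ (om i) _ (om k).1 e'.symm (om k).2.1) with e | e | e | e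
    · exact absurd (e ▸ one_mem _) (om k).2.2
    · exact absurd (e ▸ mem_zpowers _) (om k).2.2
    · rw [e, mul_inv_cancel]; exact one_mem _
    · rw [e, mul_inv_cancel_right]; exact mem_zpowers _
  obtain ⟨-, -, -, -, m5, m6, p4, p3, p2, p1, p0⟩ := A5_misc
  have mQ : σ 4 * σ 3 * σ 2 * σ 1 * σ 0 ∈ Q :=
    mul_mem (mul_mem (mul_mem (mul_mem (om 4).1 (om 3).1) (om 2).1) (om 1).1) (om 0).1
  have mz : σ 4 * σ 3 * σ 2 * σ 1 * σ 0 ∈ zpowers z := by
    refine five j (hz _) (φ5 _ m5 m6) mQ ?_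
    rw [commutatorElement_def, ← conj_mul, ← conj_mul, ← conj_mul, ← conj_mul, eq, eq, eq, eq, eq, p4, p3, p2,
      p1, p0]
    have := h.comm_mem (inv_mem (om 4).1) mQ
    rwa [show ⁅(σ 4)⁻¹, σ 4 * σ 3 * σ 2 * σ 1 * σ 0⁆ =
      σ 3 * σ 2 * σ 1 * σ 0 * σ 4 * (σ 4 * σ 3 * σ 2 * σ 1 * σ 0)⁻¹ by
        simp only [commutatorElement_def]; group] at this
  have gen : ∀ τ : Fin 5 → G, Dat φ τ z → (∀ i, τ i ∈ Q) → τ 0 ∉ zpowers z → LL τ z ⊔ φ.range = ⊤ := by
    intro τ d hQ h0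
    have hL : LL τ z ≤ Q := LL_le h.mem hQ
    have h1 := dvd_diff Nat.prime_five (φ5 _ m5 m6) (X := (LL τ z : Set G))
      fun x hx => H11.conj_mem_of_mem_normalizer (d.nL _) hx
    have h2 := ncard_split (LL τ z : Set G) (Ce (φ (a5 * H12.alt5b)))
    have h3 : LL τ z ⊓ Ce (φ (a5 * H12.alt5b)) = zpowers z :=
      le_antisymm ((inf_le_inf_right _ hL).trans (j.cent5 (mem_Ce.2 (hz _)) (φ5 _ m5 m6)).le)
        (zpowers_le.2 ⟨d.zL, mem_Ce.2 (hz _).symm⟩)
    rw [← coe_inf, h3, ncard_coe, ncard_coe, j.cz] at h2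
    have h4 : Nat.card (LL τ z) ∣ 32 := h.cq ▸ card_dvd_of_le hL
    have h5 : Nat.card (LL τ z) ≠ 2 := fun e =>
      h0 ((eq_of_le_of_card_ge (zpowers_le.2 d.zL) (by rw [e, j.cz])).ge (d.σL 0))
    have h6 : Nat.card (LL τ z) = 32 := by
      have h7 := Nat.le_of_dvd (by norm_num) h4
      generalize Nat.card (LL τ z) = n at h2 h4 h5 h7
      interval_cases n <;> omega
    have h7 : LL τ z = Q := eq_of_le_of_card_ge hL (by rw [h6, h.cq])
    refine eq_top_iff.2 fun g _ => ?_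
    rw [show g = g * (φ (π g))⁻¹ * φ (π g) by group]
    exact mul_mem (mem_sup_left (h7 ▸ (ker _).1 (by simp [hφ]))) (mem_sup_right ⟨_, rfl⟩)
  rcases h.mem_z.1 mz with e | e
  · have d : Dat φ σ z := ⟨eq, fun i => (om i).2.1, an, h.zz, fun _ => hz _, fun _ => hz _, e⟩
    exact ⟨φ, σ, d, gen σ d (fun i => (om i).1) (om 0).2.2⟩
  · have zm : ∀ a b : G, a * (z * b) = z * (a * b) := fun a b => by rw [← mul_assoc, hz, mul_assoc]
    have zz : ∀ a : G, z * (z * a) = a := fun a => by rw [← mul_assoc, h.zz, one_mul]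
    have z2 : ∀ a b : G, z * a * (z * b) = a * b := fun a b => by rw [zm, mul_assoc, zz]
    have d : Dat φ (fun i => z * σ i) z :=
      ⟨fun y i => by rw [zm, mul_assoc, eq], fun i => by rw [z2, (om i).2.1],
        fun i k e => by rw [z2, z2, an i k e], h.zz, fun _ => hz _, fun _ => hz _, by
          rw [z2, zm (σ 4 * σ 3), z2, zm, e, h.zz]⟩
    exact ⟨φ, _, d, gen _ d (fun i => mul_mem h.mem (om i).1)
      fun e => (om 0).2.2 ((mul_mem_cancel_left (mem_zpowers z)).1 e)⟩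

end PU

theorem SY.iso {G G' : Type*} [Group G] [Finite G] [Group G'] [Finite G'] {S Q : Subgroup G} {z s : G}
    {S' Q' : Subgroup G'} {z' s' : G'} (h : SY S Q z s) (h' : SY S' Q' z' s')
    (hz : ∀ g, g * z = z * g) (hz' : ∀ g, g * z' = z' * g)
    (hC : ∀ c, (∀ q ∈ Q, q * c = c * q) → c ∈ zpowers z)
    (hC' : ∀ c, (∀ q ∈ Q', q * c = c * q) → c ∈ zpowers z')
    (π : G →* A5) (sur : Function.Surjective π) (ker : ∀ x, π x = 1 ↔ x ∈ Q)
    (π' : G' →* A5) (sur' : Function.Surjective π') (ker' : ∀ x, π' x = 1 ↔ x ∈ Q') : Nonempty (G ≃* G') := by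
  obtain ⟨φ, σ, d, t⟩ := PU.exists_dat h hz hC π sur ker
  obtain ⟨φ', σ', d', t'⟩ := PU.exists_dat h' hz' hC' π' sur' ker'
  exact d.iso d' t t' (PU.cardG h sur ker) (PU.cardG h' sur' ker')

end Cfsg.Agent.J2T
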