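import Cfsg.Agent.J3S.A

/-! The 2-groups of type `J₂`: weak and strong closure of `Q` when `z` is central. -/

set_option autoImplicit false
set_option linter.unusedSectionVars false

namespace Cfsg.Agent.J2T

open Subgroup Cfsg.Agent.H10 Cfsg.Agent.JR
open scoped commutatorElement Pointwise

variable {G : Type*} [Group G] [Finite G]

theorem two_syl {S A B N : Subgroup G} (hS : H1.IsSylowIn 2 S ⊤) (hA : IsPGroup 2 A) (hB : IsPGroup 2 B)
    (a : A ≤ N) (b : B ≤ N) :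
    ∃ k, ∃ m ∈ N, (∀ x ∈ A, k * x * k⁻¹ ∈ S) ∧ ∀ x ∈ B, k * m * x * (k * m)⁻¹ ∈ S := by
  haveI : Fact (Nat.Prime 2) := ⟨Nat.prime_two⟩
  obtain ⟨P, hP, h1⟩ := H1.exists_isSylowIn_ge a hA
  obtain ⟨m, hm, h2⟩ := hP.exists_le_conj b hB
  obtain ⟨j, -, h3⟩ := hS.exists_le_conj le_top hP.isPGroup
  have key : ∀ x ∈ P, j⁻¹ * x * j⁻¹⁻¹ ∈ S := fun x hx => by
    have := h3 hx
    rw [mem_pointwise_smul_iff_inv_smul_mem] at this
    simpa [mul_assoc] using this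
  refine ⟨j⁻¹, m⁻¹, inv_mem hm, fun x hx => key x (h1 hx), fun x hx => ?_⟩
  have := h2 hx
  rw [mem_pointwise_smul_iff_inv_smul_mem] at this
  simpa [mul_assoc] using key _ this

namespace SY

variable {S Q : Subgroup G} {z s a x : G} (h : SY S Q z s) (hz : ∀ g, g * z = z * g)
include h hz

theorem cjz (g : G) : g * z * g⁻¹ = z := by rw [hz, mul_inv_cancel_right]

theorem root_cj {g n : G} (e : n * n = z) (hn : g * n * g⁻¹ ∈ S) : g * n * g⁻¹ ∈ Q :=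
  h.root _ hn (by rw [conj_mul, e, h.cjz hz])

theorem inv_cj {g n a : G} (e : n * n = z) (a2 : a * a = 1) (c : n * a = a * n) (hn : g * n * g⁻¹ ∈ S)
    (ha : g * a * g⁻¹ ∈ S) : g * a * g⁻¹ ∈ Q := by
  have h1 := h.root_cj hz (g := g) (n := n * a) (by
    rw [mul_assoc, ← mul_assoc a, ← c, mul_assoc, a2, mul_one, e]) (by
      rw [← conj_mul]; exact mul_mem hn ha)
  rw [← conj_mul] at h1
  exact (mul_mem_cancel_left (h.root_cj hz e hn)).1 h1

theorem weak {g : G} (e : ∀ q ∈ Q, g * q * g⁻¹ ∈ S) : g ∈ normalizer (Q : Set G) :=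
  mem_normalizer_fintype fun q hq => by
    rcases h.mem_z.1 (h.sq q hq) with h1 | h1
    · by_cases h2 : q ∈ zpowers z
      · rcases h.mem_z.1 h2 with rfl | rfl
        · simp
        · rw [h.cjz hz]; exact hq
      · obtain ⟨n, n1, n2, n3⟩ := h.rt ⟨hq, h1, h2⟩
        exact h.inv_cj hz n2 h1 n3 (e n n1) (e q hq)
    · exact h.root_cj hz h1 (e q hq)

theorem mem_Vs' (a2 : a * a = 1) : x ∈ Vs z a ↔ x = 1 ∨ x = z ∨ x = a ∨ x = z * a :=
  H11.mem_four_iff h.zz a2 (hz a).symm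

theorem mem_nVs (a2 : a * a = 1) (e : x * a * x⁻¹ = a ∨ x * a * x⁻¹ = z * a) :
    x ∈ normalizer (Vs z a : Set G) := mem_normalizer_fintype fun w hw => by
  have m1 : z ∈ Vs z a := subset_closure (by simp)
  have m2 : a ∈ Vs z a := subset_closure (by simp)
  have m3 : x * a * x⁻¹ ∈ Vs z a := by
    rcases e with e | e <;> rw [e]
    exacts [m2, mul_mem m1 m2]
  rcases (h.mem_Vs' hz a2).1 hw with rfl | rfl | rfl | rfl
  · simp
  · rwa [h.cjz hz]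
  · exact m3
  · rw [← conj_mul, h.cjz hz]; exact mul_mem m1 m3

theorem map_le_nVs (g : G) {y : G} (hy : y ∈ Q) (y2 : y * y = 1) :
    Q.map (MulAut.conj g).toMonoidHom ≤ normalizer (Vs z (g * y * g⁻¹) : Set G) := by
  rintro _ ⟨q, hq, rfl⟩
  refine h.mem_nVs hz (by rw [conj_mul, y2]; simp) ?_
  have e : (MulAut.conj g).toMonoidHom q * (g * y * g⁻¹) * ((MulAut.conj g).toMonoidHom q)⁻¹ =
      g * (q * y * q⁻¹) * g⁻¹ := by simp [mul_assoc]
  rw [e]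
  by_cases c : q * y = y * q
  · left; rw [c, mul_inv_cancel_right]
  · right; rw [h.conj_eq_of_ne hq hy c, ← conj_mul, h.cjz hz]

theorem cj_not_z (g : G) (ha : a ∉ zpowers z) : g * a * g⁻¹ ∉ zpowers z := fun e => ha (by
  rcases h.mem_z.1 e with e | e
  · rw [show a = g⁻¹ * (g * a * g⁻¹) * g by group, e]; simp
  · rw [show a = g⁻¹ * (g * a * g⁻¹) * g by group, e, hz]; simp)

omit h hz in
theorem closed (h : SY S Q z s) (hS : H1.IsSylowIn 2 S ⊤) (hz : ∀ g, g * z = z * g) :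
    ∀ y ∈ Q, ∀ g, g * y * g⁻¹ ∈ S → g * y * g⁻¹ ∈ Q := by
  intro y hy g ht
  rcases h.mem_z.1 (h.sq y hy) with y2 | y2
  swap
  · exact h.root_cj hz y2 ht
  by_contra tQ
  have t2 : g * y * g⁻¹ * (g * y * g⁻¹) = 1 := by rw [conj_mul, y2]; simp
  obtain ⟨ts, ⟨n, n1, n2, n3, n4⟩, -⟩ := h.out _ ht tQ t2
  obtain ⟨k, m, hm, h1, h2⟩ := two_syl hS (h.isPGroup.map (MulAut.conj g).toMonoidHom)
    (h.pS.to_le (inf_le_left (b := normalizer (Vs z (g * y * g⁻¹) : Set G)))) (h.map_le_nVs hz g hy y2) inf_le_right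
  have k1 : k * g ∈ normalizer (Q : Set G) := h.weak hz fun q hq => by
    simpa [mul_assoc] using h1 _ ⟨q, hq, rfl⟩
  have k2 : k * (g * y * g⁻¹) * k⁻¹ ∈ Q := by
    simpa [mul_assoc] using (mem_normalizer_iff.1 k1 y).1 hy
  generalize g * y * g⁻¹ = t at *
  have k3 : k * m * t * (k * m)⁻¹ ∈ Q := by
    rw [show k * m * t * (k * m)⁻¹ = k * (m * t * m⁻¹) * k⁻¹ by group]
    rcases (h.mem_Vs' hz t2).1 ((mem_normalizer_iff.1 hm t).1 (subset_closure (by simp))) with e | e | e | e <;>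
      rw [e]
    · simp
    · rw [h.cjz hz]; exact h.mem
    · exact k2
    · rw [← conj_mul, h.cjz hz]; exact mul_mem h.mem k2
  have k4 : k * m * s * (k * m)⁻¹ ∈ Q := h.inv_cj hz n2 h.sOm.2.1 n3
    (h2 n ⟨h.le n1, h.mem_nVs hz t2 (Or.inr n4)⟩)
    (h2 s ⟨h.le h.sOm.1, h.mem_nVs hz t2 (Or.inl (by rw [← ts, mul_inv_cancel_right]))⟩)
  have s2 : k * m * s * (k * m)⁻¹ * (k * m * s * (k * m)⁻¹) = 1 := by rw [conj_mul, h.sOm.2.1]; simp
  have k5 := (h.mem_Vs' hz s2).1 (h.main _ ⟨k4, s2, h.cj_not_z hz _ h.sOm.2.2⟩ _ k3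
    (by rw [conj_mul, conj_mul, ts]) (by rw [conj_mul, t2]; simp))
  generalize k * m = j at k5
  apply tQ
  rw [show t = j⁻¹ * (j * t * j⁻¹) * j⁻¹⁻¹ by group]
  rcases k5 with e | e | e | e <;> rw [e]
  · simp
  · rw [h.cjz hz]; exact h.mem
  · simpa [mul_assoc] using h.sOm.1
  · rw [← conj_mul, h.cjz hz]
    exact mul_mem h.mem (by simpa [mul_assoc] using h.sOm.1)

omit h hz in
theorem nfuse (h : SY S Q z s) (hS : H1.IsSylowIn 2 S ⊤) (hz : ∀ g, g * z = z * g) {g : G}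
    (g1 : g * s * g⁻¹ ∈ Q) (g2 : g * s * g⁻¹ * s ≠ s * (g * s * g⁻¹)) :
    ∃ k ∈ normalizer (Q : Set G), k * s * k⁻¹ * s ≠ s * (k * s * k⁻¹) := by
  have u2 : g * s * g⁻¹ * (g * s * g⁻¹) = 1 := by rw [conj_mul, h.sOm.2.1]; simp
  obtain ⟨k, m, hm, h1, h2⟩ := two_syl hS h.isPGroup (h.isPGroup.map (MulAut.conj g).toMonoidHom)
    (fun q hq => by simpa using h.map_le_nVs hz 1 g1 u2 ⟨q, hq, rfl⟩) (h.map_le_nVs hz g h.sOm.1 h.sOm.2.1)
  have k1 : k * m * g ∈ normalizer (Q : Set G) := h.weak hz fun q hq => by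
    simpa [mul_assoc] using h2 _ ⟨q, hq, rfl⟩
  refine ⟨m * g, by simpa [mul_assoc] using mul_mem (inv_mem (h.weak hz h1)) k1, ?_⟩
  have k2 := h.cj_not_z hz (m * g) h.sOm.2.2
  rw [show m * g * s * (m * g)⁻¹ = m * (g * s * g⁻¹) * m⁻¹ by group] at k2 ⊢
  rcases (h.mem_Vs' hz u2).1 ((mem_normalizer_iff.1 hm _).1 (subset_closure (Or.inr rfl))) with e | e | e | e <;>
    rw [e] at k2 ⊢
  · exact absurd (one_mem _) k2
  · exact absurd (mem_zpowers z) k2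
  · exact g2
  · rw [← mul_assoc s, hz s, mul_assoc z, mul_assoc z s]
    exact fun e => g2 (mul_left_cancel e)

end SY

end Cfsg.Agent.J2T
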